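import Cfsg.Agent.StronglyEmbedded.Basic
import Cfsg.Agent.StronglyEmbedded.Count
import Mathlib.GroupTheory.Sylow

/-!
A subgroup containing the centralizers of its involutions, with core of odd order.
-/

set_option autoImplicit false

namespace CfsgLib.InvolCent

open Cfsg CfsgLib.StronglyEmbedded

variable {S : Type*} [Group S] [Finite S] {M : Subgroup S}

theorem exists_commuting {x y : S} (hx : orderOf x = 2) (hy : orderOf y = 2) (h : ¬ IsConj x y) :
    ∃ z : S, orderOf z = 2 ∧ Commute z x ∧ Commute z y := by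
  have hne : ¬ Odd (orderOf (x * y)) := fun ho => by
    obtain ⟨c, -, hc⟩ := exists_zpowers_conj_of_odd hx hy ho
    exact h (isConj_iff.mpr ⟨c, hc⟩)
  obtain ⟨m, hm⟩ := Nat.not_odd_iff_even.mp hne
  have hpos := orderOf_pos (x * y)
  set z := (x * y) ^ m with hz
  have hzz : z * z = 1 := by rw [hz, ← pow_add, ← hm, pow_orderOf_eq_one]
  have hz1 : z ≠ 1 := fun e => by
    have := orderOf_le_of_pow_eq_one (x := x * y) (show 0 < m by omega) e
    omega
  have hz2 : orderOf z = 2 := orderOf_two_iff.mpr ⟨hzz, hz1⟩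
  have hxc : Commute z x := by
    refine Commute.symm (commute_iff_conj_eq.mpr ?_)
    calc x * z * x⁻¹ = (x * (x * y) * x⁻¹) ^ m := by rw [conj_pow]
      _ = ((x * y)⁻¹) ^ m := by
          congr 1
          rw [mul_inv_rev, inv_eq_self hx, inv_eq_self hy, ← mul_assoc x x y, mul_self_eq_one hx, one_mul]
      _ = z := by rw [inv_pow, ← hz, inv_eq_self hz2]
  refine ⟨z, hz2, hxc, ?_⟩
  have hxy : Commute z (x * y) := (Commute.refl (x * y)).pow_left m
  have hy' : y = x * (x * y) := by rw [← mul_assoc, mul_self_eq_one hx, one_mul]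
  rw [hy']
  exact hxc.mul_right hxy

theorem mem_of_not_isConj (hC : ∀ i ∈ M, orderOf i = 2 → Subgroup.centralizer ({i} : Set S) ≤ M)
    {i y : S} (hi : i ∈ M) (hi2 : orderOf i = 2) (hy : orderOf y = 2) (h : ¬ IsConj i y) : y ∈ M := by
  obtain ⟨z, hz, hzi, hzy⟩ := exists_commuting hi2 hy h
  have hzM : z ∈ M := hC i hi hi2 (Subgroup.mem_centralizer_singleton_iff.mpr hzi)
  exact hC z hzM hz (Subgroup.mem_centralizer_singleton_iff.mpr hzy.symm)

theorem isConj_involutions' (hM : Even (Nat.card M))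
    (hC : ∀ i ∈ M, orderOf i = 2 → Subgroup.centralizer ({i} : Set S) ≤ M)
    (hcore : Odd (Nat.card M.normalCore)) (x y : S) (hx : orderOf x = 2) (hy : orderOf y = 2) :
    IsConj x y := by
  by_contra hxy
  obtain ⟨i, hi, hi2⟩ := exists_involution_of_even hM
  -- an involution of `M` outside the class of another one
  obtain ⟨w, hw, hiw⟩ : ∃ w : S, orderOf w = 2 ∧ ¬ IsConj i w := by
    by_cases h : IsConj i x
    · exact ⟨y, hy, fun h' => hxy (h.symm.trans h')⟩
    · exact ⟨x, hx, h⟩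
  have hall : ∀ t : S, orderOf t = 2 → t ∈ M := by
    intro t ht
    by_cases h : IsConj i t
    · exact mem_of_not_isConj hC (mem_of_not_isConj hC hi hi2 hw hiw) hw ht
        fun h' => hiw (h.trans h'.symm)
    · exact mem_of_not_isConj hC hi hi2 ht h
  have hcm : i ∈ M.normalCore := fun g => hall _ (by rw [orderOf_conj, hi2])
  exact Nat.not_even_iff_odd.mpr hcore (even_card_of_mem hi2 hcm)

theorem isStronglyEmbedded (hM : Even (Nat.card M))
    (hC : ∀ i ∈ M, orderOf i = 2 → Subgroup.centralizer ({i} : Set S) ≤ M)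
    (hcore : Odd (Nat.card M.normalCore)) (X : Sylow 2 M) {I : M}
    (hI : I ∈ (Subgroup.center ↥(X : Subgroup ↥M)).map (X : Subgroup ↥M).subtype) (hI2 : orderOf I = 2)
    (hN : Subgroup.normalizer (((X : Subgroup M).map M.subtype : Subgroup S) : Set S) ≤ M) :
    IsStronglyEmbedded M := by
  haveI : Fact (Nat.Prime 2) := ⟨Nat.prime_two⟩
  obtain ⟨P, hP⟩ := exists_sylow_eq_map X hN
  have hIS : orderOf (I : S) = 2 := by rw [Subgroup.orderOf_coe, hI2]
  have hne : M ≠ ⊤ := by
    intro h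
    have he : M.normalCore = M := le_antisymm M.normalCore_le (fun m hm g => h ▸ Subgroup.mem_top _)
    rw [he] at hcore
    exact Nat.not_even_iff_odd.mpr hcore hM
  have hPI : (P : Subgroup S) ≤ Subgroup.centralizer ({(I : S)} : Set S) := by
    rw [hP]
    obtain ⟨c, hc, rfl⟩ := hI
    rintro _ ⟨x, hx, rfl⟩
    rw [Subgroup.mem_centralizer_singleton_iff]
    exact congrArg (fun t : (X : Subgroup M) => ((t : M) : S)) (Subgroup.mem_center_iff.mp hc ⟨x, hx⟩)
  have key : ∀ g : S, g * (I : S) * g⁻¹ ∈ M → g ∈ M := by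
    intro g hg
    have ht : orderOf (g * (I : S) * g⁻¹) = 2 := by rw [orderOf_conj, hIS]
    have hle : ((g • P : Sylow 2 S) : Subgroup S) ≤ M := by
      rintro x hx
      rw [Sylow.smul_def, Sylow.pointwise_smul_def, Subgroup.mem_pointwise_smul_iff_inv_smul_mem] at hx
      have h1 : g⁻¹ * x * g ∈ (P : Subgroup S) := by
        simpa [MulAut.smul_def, MulAut.conj_symm_apply] using hx
      refine hC _ hg ht (Subgroup.mem_centralizer_singleton_iff.mpr ?_)
      have h2 := Subgroup.mem_centralizer_singleton_iff.mp (hPI h1)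
      calc x * (g * (I : S) * g⁻¹) = g * ((g⁻¹ * x * g) * I) * g⁻¹ := by group
        _ = g * ((I : S) * (g⁻¹ * x * g)) * g⁻¹ := by rw [h2]
        _ = _ := by group
    have hPM : (P : Subgroup S) ≤ M := hP ▸ Subgroup.map_subtype_le _
    obtain ⟨m, hm⟩ := MulAction.exists_smul_eq M (P.subtype hPM) ((g • P).subtype hle)
    rw [Sylow.smul_subtype] at hm
    have h2 : (m : S) • P = g • P := Sylow.subtype_injective hm
    have hfix : ((m : S)⁻¹ * g) • P = P := by rw [mul_smul, ← h2, inv_smul_smul]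
    have h3 : (m : S)⁻¹ * g ∈ M := by
      apply hN
      rw [← hP]
      exact Sylow.smul_eq_iff_mem_normalizer.mp hfix
    simpa using mul_mem m.2 h3
  refine intro_of_conj_mem hne hM fun t g ht htM hg => ?_
  obtain ⟨h, rfl⟩ := isConj_iff.mp (isConj_involutions' hM hC hcore _ t hIS ht)
  have h1 := key h htM
  have h2 := key (g * h) (by simpa [mul_assoc, mul_inv_rev] using hg)
  simpa using mul_mem h2 (inv_mem h1)

theorem main (hM : Even (Nat.card M))
    (hC : ∀ i ∈ M, orderOf i = 2 → Subgroup.centralizer ({i} : Set S) ≤ M)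
    (hcore : Odd (Nat.card M.normalCore)) (X : Sylow 2 M) (I : M)
    (hI : I ∈ (Subgroup.center ↥(X : Subgroup ↥M)).map (X : Subgroup ↥M).subtype) (hI2 : orderOf I = 2)
    (hN : Subgroup.normalizer (((X : Subgroup M).map M.subtype : Subgroup S) : Set S) ≤ M) :
    (∀ x y : M, orderOf x = 2 → orderOf y = 2 → IsConj x y) ∧
      ∃ M₀ : Subgroup M, Odd (Nat.card M₀) ∧
        ∀ m : M, ∃ a ∈ M₀, ∃ c ∈ Subgroup.centralizer ({I} : Set M), m = a * c := by
  have hse := isStronglyEmbedded hM hC hcore X hI hI2 hN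
  constructor
  · intro x y hx hy
    obtain ⟨h, hh, he⟩ := exists_mem_conj hse ((Subgroup.orderOf_coe x).trans hx) x.2
      ((Subgroup.orderOf_coe y).trans hy) y.2
    exact isConj_iff.mpr ⟨⟨h, hh⟩, Subtype.ext he⟩
  obtain ⟨u, huM, hu⟩ := exists_involution_not_mem hse
  refine ⟨(M ⊓ M.map (MulAut.conj u).toMonoidHom).subgroupOf M, ?_, fun m => ?_⟩
  · rw [Nat.card_congr (Subgroup.subgroupOfEquivOfLe inf_le_left).toEquiv]
    exact odd_card_inf hse huM
  have hIS : orderOf (I : S) = 2 := by rw [Subgroup.orderOf_coe, hI2]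
  obtain ⟨d, hd, hde⟩ := exists_invertedSet_conj hse hu huM hIS I.2
    (t := (m : S) * I * (m : S)⁻¹) (by rw [orderOf_conj, hIS])
    (mul_mem (mul_mem m.2 I.2) (inv_mem m.2))
  refine ⟨⟨d, hd.1⟩, invertedSet_subset hd, ⟨d, hd.1⟩⁻¹ * m,
    Subgroup.mem_centralizer_singleton_iff.mpr (Subtype.ext ?_), (mul_inv_cancel_left _ _).symm⟩
  show d⁻¹ * (m : S) * I = I * (d⁻¹ * m)
  calc d⁻¹ * (m : S) * I = d⁻¹ * ((m : S) * I * (m : S)⁻¹) * m := by group
    _ = d⁻¹ * (d * I * d⁻¹) * m := by rw [hde]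
    _ = _ := by group

end CfsgLib.InvolCent
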